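import Cfsg.Agent.H198.IF.Sl
import Cfsg.Agent.H989.Fx.OmE

/-!
# S5719, orthogonal groups, `q` odd: the end game (helper198)

`end_game` : a subgroup `X` of `E Q` which contains a fundamental involution and, with every fundamental involution
`z`, all Siegel elements of the fixed space of `z`, is `E Q` (dimension at least 11).
-/

set_option autoImplicit false
set_option linter.unusedSectionVars false

namespace Cfsg.Agent.H198.IF

open QuadraticMap Matrix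
open Cfsg.Agent.LieClassical.OrthCore Cfsg.Agent.LieClassical.OrthTrans Cfsg.Agent.LieClassical.OrthSimple
open Cfsg.Agent.LieClassical.SLTwoUnipotent (u l coe_u coe_l eq_top_of_u_mem_of_l_mem)
open Cfsg.Agent.H989.Gs.Gen
open Cfsg.Agent.H989.Fx (Fund fund_ap fund_of_four)
open Cfsg.Agent.UGT.U2.FOne.Orth (Four tl)
open Cfsg.Agent.AutOrth.SemiSim (RS sg mem_RS)
open Cfsg.Agent.AutOrth.Gen (sup_RS_eq_top)

variable {F V : Type*} [Field F] [AddCommGroup V] [Module F V] {Q : QuadraticForm F V}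

namespace HS

variable {n : ℕ} {e f : Fin n → V}

/-- one more hyperbolic pair -/
theorem exists_hyp [Finite F] (h : HS Q e f) (hQ : Nondeg Q) (hN : 2 * n + 3 ≤ Module.finrank F V) :
    ∃ x y, Hyp Q x y ∧ (∀ i, polar Q (e i) x = 0) ∧ (∀ i, polar Q (f i) x = 0) ∧ (∀ i, polar Q (e i) y = 0) ∧
      ∀ i, polar Q (f i) y = 0 := by
  obtain ⟨x, h0, hx, hp⟩ := LieClassical.OrthFinite.exists_sing_perp (Q := Q) (Fin.append e f) (by omega)
  have hex : ∀ i, polar Q (e i) x = 0 := fun i => by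
    have := hp (Fin.castAdd n i)
    rwa [Fin.append_left] at this
  have hfx : ∀ i, polar Q (f i) x = 0 := fun i => by
    have := hp (Fin.natAdd n i)
    rwa [Fin.append_right] at this
  obtain ⟨y, hy⟩ := Cfsg.Agent.LieClassical.OrthTrans.exists_hyp hQ hx h0
  have hcx : cx Q e x = 0 := funext hex
  have hcx' : cx Q f x = 0 := funext hfx
  obtain ⟨y₁, hy₁⟩ : ∃ y₁, y₁ = y - cb e (cx Q f y) - cb f (cx Q e y) := ⟨_, rfl⟩
  have h1 : polar Q x y₁ = 1 := by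
    rw [hy₁, polar_sub_right, polar_sub_right, polar_cb, polar_cb, hcx, hcx', dotProduct_zero, dotProduct_zero,
      hy.pair, sub_zero, sub_zero]
  have h2 : cx Q e y₁ = 0 := by
    have : y₁ = y + (-1 : F) • cb e (cx Q f y) + (-1 : F) • cb f (cx Q e y) := by rw [hy₁]; module
    rw [this, cx_add, cx_add, cx_smul, cx_smul, h.cx_ee, h.symm.cx_fe]
    funext i
    simp
  have h3 : cx Q f y₁ = 0 := by
    have : y₁ = y + (-1 : F) • cb e (cx Q f y) + (-1 : F) • cb f (cx Q e y) := by rw [hy₁]; module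
    rw [this, cx_add, cx_add, cx_smul, cx_smul, h.cx_fe, h.symm.cx_ee]
    funext i
    simp
  refine ⟨x, y₁ + (-Q y₁) • x, ⟨hx, ?_, ?_⟩, hex, hfx, ?_, ?_⟩
  · rw [Q_add, QuadraticMap.map_smul, hx, polar_smul_right, polar_comm Q y₁ x, h1]
    simp
  · rw [polar_add_right, polar_smul_right, polar_self_of_sing hx, h1]
    simp
  · intro i
    rw [polar_add_right, polar_smul_right, hex, smul_zero, add_zero]
    exact congrFun h2 i
  · intro i
    rw [polar_add_right, polar_smul_right, hfx, smul_zero, add_zero]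
    exact congrFun h3 i

theorem cons (h : HS Q e f) {x y : V} (hxy : Hyp Q x y) (h1 : ∀ i, polar Q (e i) x = 0) (h2 : ∀ i, polar Q (f i) x = 0)
    (h3 : ∀ i, polar Q (e i) y = 0) (h4 : ∀ i, polar Q (f i) y = 0) : HS Q (vecCons x e) (vecCons y f) where
  qe i := Fin.cases hxy.left (fun i => h.qe i) i
  qf i := Fin.cases hxy.right (fun i => h.qf i) i
  ee i j := by
    refine Fin.cases ?_ (fun i => ?_) i <;> refine Fin.cases ?_ (fun j => ?_) j
    · exact hxy.polar_left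
    · exact polar_zero_of_comm (h1 j)
    · exact h1 i
    · exact h.ee i j
  ff i j := by
    refine Fin.cases ?_ (fun i => ?_) i <;> refine Fin.cases ?_ (fun j => ?_) j
    · exact hxy.polar_right
    · exact polar_zero_of_comm (h4 j)
    · exact h4 i
    · exact h.ff i j
  ef i j := by
    refine Fin.cases ?_ (fun i => ?_) i <;> refine Fin.cases ?_ (fun j => ?_) j
    · simpa using hxy.pair
    · rw [if_neg (Fin.succ_ne_zero j).symm]
      exact polar_zero_of_comm (h2 j)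
    · rw [if_neg (Fin.succ_ne_zero i)]
      exact h3 i
    · have := h.ef i j
      simpa using this

theorem exists_cons [Finite F] (h : HS Q e f) (hQ : Nondeg Q) (hN : 2 * n + 3 ≤ Module.finrank F V) :
    ∃ x y, HS Q (vecCons x e) (vecCons y f) := by
  obtain ⟨x, y, hxy, h1, h2, h3, h4⟩ := h.exists_hyp hQ hN
  exact ⟨x, y, h.cons hxy h1 h2 h3 h4⟩

theorem of_four {e₁ f₁ e₂ f₂ : V} (h : Four Q e₁ f₁ e₂ f₂) : HS Q ![e₁, e₂] ![f₁, f₂] where
  qe := Fin.forall_fin_two.2 ⟨h.h1.left, h.h2.left⟩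
  qf := Fin.forall_fin_two.2 ⟨h.h1.right, h.h2.right⟩
  ee := Fin.forall_fin_two.2 ⟨Fin.forall_fin_two.2 ⟨h.h1.polar_left, h.ee⟩,
    Fin.forall_fin_two.2 ⟨polar_zero_of_comm h.ee, h.h2.polar_left⟩⟩
  ff := Fin.forall_fin_two.2 ⟨Fin.forall_fin_two.2 ⟨h.h1.polar_right, h.ff⟩,
    Fin.forall_fin_two.2 ⟨polar_zero_of_comm h.ff, h.h2.polar_right⟩⟩
  ef := Fin.forall_fin_two.2 ⟨Fin.forall_fin_two.2 ⟨by simpa using h.h1.pair, by simpa using h.ef⟩,
    Fin.forall_fin_two.2 ⟨by simpa using polar_zero_of_comm h.fe, by simpa using h.h2.pair⟩⟩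

/-- two members of a hyperbolic system -/
theorem four (h : HS Q e f) {i j : Fin n} (hij : i ≠ j) : Four Q (e i) (f i) (e j) (f j) where
  h1 := ⟨h.qe i, h.qf i, by rw [h.ef, if_pos rfl]⟩
  h2 := ⟨h.qe j, h.qf j, by rw [h.ef, if_pos rfl]⟩
  ee := h.ee i j
  ef := by rw [h.ef, if_neg hij]
  fe := by rw [h.fe, if_neg hij]
  ff := h.ff i j

theorem hyp (h : HS Q e f) (i : Fin n) : Hyp Q (e i) (f i) := ⟨h.qe i, h.qf i, by rw [h.ef, if_pos rfl]⟩

end HS

/-- the long `SL₂` in terms of Siegel elements -/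
theorem rhoE_u {e₁ f₁ e₂ f₂ : V} (h : Four Q e₁ f₁ e₂ f₂) (t : F) : h.rhoE (u t) = S Q e₁ ((-t) • f₂) := by
  have hq : Q ((-t) • f₂) = 0 := by rw [QuadraticMap.map_smul, h.h2.right, smul_zero]
  apply ext_ap
  intro v
  rw [S_ap' h.h1.left (h.e1_s t) hq]
  exact h.rho_u t v

theorem rhoE_l {e₁ f₁ e₂ f₂ : V} (h : Four Q e₁ f₁ e₂ f₂) (t : F) : h.rhoE (l t) = S Q e₂ ((-t) • f₁) := by
  have hq : Q ((-t) • f₁) = 0 := by rw [QuadraticMap.map_smul, h.h1.right, smul_zero]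
  apply ext_ap
  intro v
  rw [S_ap' h.h2.left (h.e2_s t) hq]
  exact h.rho_l t v

/-- `-1` in `SL₂` -/
def neg₂ (F : Type*) [Field F] : SpecialLinearGroup (Fin 2) F := ⟨-1, by simp [Matrix.det_neg]⟩

/-- the fundamental involution of a quadruple -/
theorem fund_rho {e₁ f₁ e₂ f₂ : V} (h : Four Q e₁ f₁ e₂ f₂) : Fund Q (h.rhoE (neg₂ F)) := fund_of_four h rfl

theorem rho_neg {e₁ f₁ e₂ f₂ : V} (h : Four Q e₁ f₁ e₂ f₂) :
    ap (h.rhoE (neg₂ F)) e₁ = -e₁ ∧ ap (h.rhoE (neg₂ F)) f₁ = -f₁ ∧ ap (h.rhoE (neg₂ F)) e₂ = -e₂ ∧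
      ap (h.rhoE (neg₂ F)) f₂ = -f₂ := by
  have a00 : (neg₂ F).1 0 0 = -1 := by simp [neg₂]
  have a01 : (neg₂ F).1 0 1 = 0 := by simp [neg₂]
  have a10 : (neg₂ F).1 1 0 = 0 := by simp [neg₂]
  have a11 : (neg₂ F).1 1 1 = -1 := by simp [neg₂]
  refine ⟨(h.rho_e1 _).trans ?_, (h.rho_f1 _).trans ?_, (h.rho_e2 _).trans ?_, (h.rho_f2 _).trans ?_⟩
  · rw [a00, a10]; module
  · rw [a11, a01]; module
  · rw [a01, a11]; module
  · rw [a10, a00]; module

theorem rho_fix {e₁ f₁ e₂ f₂ : V} (h : Four Q e₁ f₁ e₂ f₂) {v : V} (h1 : polar Q e₁ v = 0) (h2 : polar Q f₁ v = 0)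
    (h3 : polar Q e₂ v = 0) (h4 : polar Q f₂ v = 0) (M : SpecialLinearGroup (Fin 2) F) : ap (h.rhoE M) v = v :=
  h.rho_perp h1 h2 h3 h4 M

/-- all of the long `SL₂` is in `X` if the Siegel elements of the four space are -/
theorem rho_mem_of {X : Subgroup ↥(E Q)} {e₁ f₁ e₂ f₂ : V} (h : Four Q e₁ f₁ e₂ f₂)
    (h1 : ∀ t : F, S Q e₁ (t • f₂) ∈ X) (h2 : ∀ t : F, S Q e₂ (t • f₁) ∈ X) (M : SpecialLinearGroup (Fin 2) F) :
    h.rhoE M ∈ X := by
  have h3 : X.comap h.rhoE = ⊤ := by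
    apply eq_top_of_u_mem_of_l_mem
    · intro t
      rw [Subgroup.mem_comap, rhoE_u]
      exact h1 _
    · intro t
      rw [Subgroup.mem_comap, rhoE_l]
      exact h2 _
  exact Subgroup.mem_comap.1 (h3 ▸ Subgroup.mem_top M)

/-- **the end game** -/
theorem end_game [Finite F] [FiniteDimensional F V] (hQ : Nondeg Q) (hN : 11 ≤ Module.finrank F V)
    (X : Subgroup ↥(E Q)) (z : ↥(E Q)) (hz : Fund Q z) (hzX : z ∈ X)
    (step : ∀ z : ↥(E Q), Fund Q z → z ∈ X → ∀ u w : V, Q u = 0 → polar Q u w = 0 → ap z u = u → ap z w = w →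
      S Q u w ∈ X) : X = ⊤ := by
  have hG : Good Q := LieClassical.OrthFinite.good_of_finite hQ (by omega)
  obtain ⟨e₁, f₁, e₂, f₂, hF, z1, z2, z3, z4, z5⟩ := hz
  have hz : Fund Q z := ⟨e₁, f₁, e₂, f₂, hF, z1, z2, z3, z4, z5⟩
  have H2 := HS.of_four hF
  obtain ⟨a₁, b₁, H3⟩ := H2.exists_cons hQ (by omega)
  obtain ⟨a₂, b₂, H4⟩ := H3.exists_cons hQ (by omega)
  obtain ⟨x, y, H5⟩ := H4.exists_cons hQ (by omega)
  -- z fixes the last three pairs
  have fixz : ∀ v, polar Q e₁ v = 0 → polar Q f₁ v = 0 → polar Q e₂ v = 0 → polar Q f₂ v = 0 → ap z v = v := z5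
  have hA : Four Q a₁ b₁ a₂ b₂ := H5.four (i := 2) (j := 1) (by decide)
  have za₁ : ap z a₁ = a₁ := fixz _ (H5.ee 3 2) ((H5.fe 3 2).trans (if_neg (by decide))) (H5.ee 4 2)
    ((H5.fe 4 2).trans (if_neg (by decide)))
  have zb₁ : ap z b₁ = b₁ := fixz _ ((H5.ef 3 2).trans (if_neg (by decide))) (H5.ff 3 2)
    ((H5.ef 4 2).trans (if_neg (by decide))) (H5.ff 4 2)
  have za₂ : ap z a₂ = a₂ := fixz _ (H5.ee 3 1) ((H5.fe 3 1).trans (if_neg (by decide))) (H5.ee 4 1)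
    ((H5.fe 4 1).trans (if_neg (by decide)))
  have zb₂ : ap z b₂ = b₂ := fixz _ ((H5.ef 3 1).trans (if_neg (by decide))) (H5.ff 3 1)
    ((H5.ef 4 1).trans (if_neg (by decide))) (H5.ff 4 1)
  have zx : ap z x = x := fixz _ (H5.ee 3 0) ((H5.fe 3 0).trans (if_neg (by decide))) (H5.ee 4 0)
    ((H5.fe 4 0).trans (if_neg (by decide)))
  have zy : ap z y = y := fixz _ ((H5.ef 3 0).trans (if_neg (by decide))) (H5.ff 3 0)
    ((H5.ef 4 0).trans (if_neg (by decide))) (H5.ff 4 0)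
  -- the second fundamental involution
  have hz'X : hA.rhoE (neg₂ F) ∈ X := by
    apply rho_mem_of hA
    · intro t
      exact step z hz hzX _ _ hA.h1.left (by rw [polar_smul_right, hA.ef, smul_zero]) za₁ (by rw [ap_smul, zb₂])
    · intro t
      exact step z hz hzX _ _ hA.h2.left (by rw [polar_smul_right, polar_zero_of_comm hA.fe, smul_zero]) za₂
        (by rw [ap_smul, zb₁])
  set z' := hA.rhoE (neg₂ F) with hz'
  have hz'F : Fund Q z' := fund_rho hA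
  have fixz' : ∀ v, polar Q a₁ v = 0 → polar Q b₁ v = 0 → polar Q a₂ v = 0 → polar Q b₂ v = 0 → ap z' v = v :=
    fun v k1 k2 k3 k4 => rho_fix hA k1 k2 k3 k4 _
  have y1 : ap z' e₁ = e₁ := fixz' _ (H5.ee 2 3) ((H5.fe 2 3).trans (if_neg (by decide))) (H5.ee 1 3)
    ((H5.fe 1 3).trans (if_neg (by decide)))
  have y2 : ap z' f₁ = f₁ := fixz' _ ((H5.ef 2 3).trans (if_neg (by decide))) (H5.ff 2 3)
    ((H5.ef 1 3).trans (if_neg (by decide))) (H5.ff 1 3)
  have y3 : ap z' e₂ = e₂ := fixz' _ (H5.ee 2 4) ((H5.fe 2 4).trans (if_neg (by decide))) (H5.ee 1 4)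
    ((H5.fe 1 4).trans (if_neg (by decide)))
  have y4 : ap z' f₂ = f₂ := fixz' _ ((H5.ef 2 4).trans (if_neg (by decide))) (H5.ff 2 4)
    ((H5.ef 1 4).trans (if_neg (by decide))) (H5.ff 1 4)
  have z'x : ap z' x = x := fixz' _ (H5.ee 2 0) ((H5.fe 2 0).trans (if_neg (by decide))) (H5.ee 1 0)
    ((H5.fe 1 0).trans (if_neg (by decide)))
  have z'y : ap z' y = y := fixz' _ ((H5.ef 2 0).trans (if_neg (by decide))) (H5.ff 2 0)
    ((H5.ef 1 0).trans (if_neg (by decide))) (H5.ff 1 0)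
  -- Siegel elements of `x` and `y`
  have key : ∀ e : V, Q e = 0 → ap z e = e → ap z' e = e → polar Q e e₁ = 0 → polar Q e f₁ = 0 → polar Q e e₂ = 0 →
      polar Q e f₂ = 0 → ∀ w, polar Q e w = 0 → S Q e w ∈ X := by
    intro e he ze z'e p1 p2 p3 p4 w hw
    obtain ⟨w₂, hw₂⟩ : ∃ w₂, w₂ = polar Q f₁ w • e₁ + polar Q e₁ w • f₁ + (polar Q f₂ w • e₂ + polar Q e₂ w • f₂) :=
      ⟨_, rfl⟩
    have hzw : ap z w = w - (2 : F) • w₂ := by rw [hw₂]; exact fund_ap hF z1 z2 z3 z4 z5 w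
    have hzw₂ : ap z w₂ = -w₂ := by
      rw [hw₂]
      simp only [ap_add, ap_smul, z1, z2, z3, z4]
      module
    have hz'w₂ : ap z' w₂ = w₂ := by
      rw [hw₂]
      simp only [ap_add, ap_smul, y1, y2, y3, y4]
    have ew₂ : polar Q e w₂ = 0 := by
      rw [hw₂]
      simp only [polar_add_right, polar_smul_right, p1, p2, p3, p4, smul_zero, add_zero]
    have ew₁ : polar Q e (w - w₂) = 0 := by rw [polar_sub_right, hw, ew₂, sub_zero]
    have hzw₁ : ap z (w - w₂) = w - w₂ := by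
      rw [ap_sub, hzw, hzw₂]
      module
    have h1 := step z hz hzX e (w - w₂) he ew₁ ze hzw₁
    have h2 := step z' hz'F hz'X e w₂ he ew₂ z'e hz'w₂
    have h3 : S Q e w = S Q e (w - w₂) * S Q e w₂ := by
      rw [← S_add he ew₁ ew₂, sub_add_cancel]
    rw [h3]
    exact X.mul_mem h1 h2
  have hxy : Hyp Q x y := H5.hyp 0
  rw [eq_top_iff, ← sup_RS_eq_top hG hxy, sup_le_iff]
  constructor
  · intro g hg
    obtain ⟨w, hw, rfl⟩ := mem_RS.1 hg
    rw [← S_eq hxy.left hw]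
    exact key x hxy.left zx z'x (H5.ee 0 3) ((H5.ef 0 3).trans (if_neg (by decide))) (H5.ee 0 4)
      ((H5.ef 0 4).trans (if_neg (by decide))) w hw
  · intro g hg
    obtain ⟨w, hw, rfl⟩ := mem_RS.1 hg
    rw [← S_eq hxy.right hw]
    exact key y hxy.right zy z'y ((H5.fe 0 3).trans (if_neg (by decide))) (H5.ff 0 3)
      ((H5.fe 0 4).trans (if_neg (by decide))) (H5.ff 0 4) w hw

/-- **the end game for two subspaces**: `D`, `D'` with their Siegel elements in `X`, `U ⊔ D = ⊤`, `U ≤ D'`, and a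
hyperbolic pair in `D ⊓ D'` orthogonal to `U` (e.g. `D = U^⊥`, `D' = U'^⊥`, `U ⊥ U'` nondegenerate) -/
theorem end_two (hG : Good Q) {x y : V} (hxy : Hyp Q x y) (U D D' : Submodule F V) (hUD : U ⊔ D = ⊤) (hU' : U ≤ D')
    (hx : x ∈ D) (hy : y ∈ D) (hx' : x ∈ D') (hy' : y ∈ D') (hxU : ∀ u ∈ U, polar Q x u = 0)
    (hyU : ∀ u ∈ U, polar Q y u = 0) (X : Subgroup ↥(E Q))
    (hX : ∀ u ∈ D, ∀ w ∈ D, Q u = 0 → polar Q u w = 0 → S Q u w ∈ X)
    (hX' : ∀ u ∈ D', ∀ w ∈ D', Q u = 0 → polar Q u w = 0 → S Q u w ∈ X) : X = ⊤ := by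
  have key : ∀ e ∈ D, e ∈ D' → Q e = 0 → (∀ u ∈ U, polar Q e u = 0) → ∀ w, polar Q e w = 0 → S Q e w ∈ X := by
    intro e he he' hq heU w hw
    have h1 : w ∈ U ⊔ D := by rw [hUD]; exact Submodule.mem_top
    obtain ⟨a, ha, b, hb, rfl⟩ := Submodule.mem_sup.1 h1
    have h2 := heU a ha
    have h3 : polar Q e b = 0 := by
      rw [polar_add_right, h2, zero_add] at hw
      exact hw
    rw [S_add hq h2 h3]
    exact X.mul_mem (hX' e he' a (hU' ha) hq h2) (hX e he b hb hq h3)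
  rw [eq_top_iff, ← sup_RS_eq_top hG hxy, sup_le_iff]
  constructor
  · intro g hg
    obtain ⟨w, hw, rfl⟩ := mem_RS.1 hg
    rw [← S_eq hxy.left hw]
    exact key x hx hx' hxy.left hxU w hw
  · intro g hg
    obtain ⟨w, hw, rfl⟩ := mem_RS.1 hg
    rw [← S_eq hxy.right hw]
    exact key y hy hy' hxy.right hyU w hw

end Cfsg.Agent.H198.IF
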