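import Cfsg.Agent.H749.BlockOrth
import Cfsg.Agent.H989.Gs.Gen
import Cfsg.Agent.LieClassical.SLGen

/-!
# S5719: `SL_n` inside `E Q` for a hyperbolic system (helper198)

`HS Q e f` : hyperbolic system. `phi hs hG h3 : SL_n(F) →* E Q`; it contains the root elements `S Q (e i) (t • f j)` and
commutes with every isometry fixing the system.
-/

set_option autoImplicit false
set_option linter.unusedSectionVars false

namespace Cfsg.Agent.H198.IF

open QuadraticMap Matrix
open Cfsg.Agent.LieClassical.OrthCore Cfsg.Agent.LieClassical.OrthTrans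
open Cfsg.Agent.H989.Gs.Gen

variable {F V : Type*} [Field F] [AddCommGroup V] [Module F V] {Q : QuadraticForm F V} {n : ℕ}

/-- a hyperbolic system -/
structure HS (Q : QuadraticForm F V) (e f : Fin n → V) : Prop where
  qe : ∀ i, Q (e i) = 0
  qf : ∀ i, Q (f i) = 0
  ee : ∀ i j, polar Q (e i) (e j) = 0
  ff : ∀ i j, polar Q (f i) (f j) = 0
  ef : ∀ i j, polar Q (e i) (f j) = if i = j then 1 else 0

theorem polar_sum {ι : Type*} (s : Finset ι) (x : V) (g : ι → V) :
    polar Q x (∑ i ∈ s, g i) = ∑ i ∈ s, polar Q x (g i) := map_sum (polarBilin Q x) g s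

/-- the values on the system -/
def cx (Q : QuadraticForm F V) (e : Fin n → V) (v : V) : Fin n → F := fun i => polar Q (e i) v

theorem cx_add (e : Fin n → V) (v w : V) : cx Q e (v + w) = cx Q e v + cx Q e w := by
  funext i
  exact polar_add_right _ _ _ _

theorem cx_smul (e : Fin n → V) (a : F) (v : V) : cx Q e (a • v) = a • cx Q e v := by
  funext i
  exact polar_smul_right _ _ _ _

/-- a combination -/
def cb (e : Fin n → V) (a : Fin n → F) : V := ∑ i, a i • e i

theorem cb_add (e : Fin n → V) (a b : Fin n → F) : cb e (a + b) = cb e a + cb e b := by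
  simp only [cb, Pi.add_apply, add_smul, Finset.sum_add_distrib]

theorem cb_sub (e : Fin n → V) (a b : Fin n → F) : cb e (a - b) = cb e a - cb e b := by
  simp only [cb, Pi.sub_apply, sub_smul, Finset.sum_sub_distrib]

theorem cb_smul (e : Fin n → V) (c : F) (a : Fin n → F) : cb e (c • a) = c • cb e a := by
  simp only [cb, Pi.smul_apply, smul_eq_mul, Finset.smul_sum, smul_smul]

theorem polar_cb (e : Fin n → V) (a : Fin n → F) (v : V) : polar Q v (cb e a) = a ⬝ᵥ cx Q e v := by
  rw [cb, polar_sum]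
  refine Finset.sum_congr rfl fun i _ => ?_
  rw [polar_smul_right, polar_comm]
  rfl

/-- the linear map -/
def L (Q : QuadraticForm F V) (e f : Fin n → V) (M N : Matrix (Fin n) (Fin n) F) : V →ₗ[F] V where
  toFun v := v + cb e (M *ᵥ cx Q f v - cx Q f v) + cb f (N *ᵥ cx Q e v - cx Q e v)
  map_add' v w := by
    rw [cx_add, cx_add, mulVec_add, mulVec_add]
    simp only [cb_sub, cb_add]
    abel
  map_smul' c v := by
    rw [cx_smul, cx_smul, mulVec_smul, mulVec_smul]
    simp only [cb_sub, cb_smul, RingHom.id_apply, smul_add, smul_sub]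

theorem L_apply (e f : Fin n → V) (M N : Matrix (Fin n) (Fin n) F) (v : V) :
    L Q e f M N v = v + cb e (M *ᵥ cx Q f v - cx Q f v) + cb f (N *ᵥ cx Q e v - cx Q e v) := rfl

theorem L_one (e f : Fin n → V) (v : V) : L Q e f 1 1 v = v := by
  rw [L_apply, one_mulVec, one_mulVec, sub_self, sub_self]
  simp [cb]

namespace HS

variable {e f : Fin n → V} (h : HS Q e f)

include h

theorem fe (i j : Fin n) : polar Q (f i) (e j) = if i = j then 1 else 0 := by
  rw [polar_comm, h.ef]
  simp only [eq_comm]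

theorem symm : HS Q f e := ⟨h.qf, h.qe, h.ff, h.ee, h.fe⟩

theorem cx_ee (a : Fin n → F) : cx Q e (cb e a) = 0 := by
  funext i
  show polar Q (e i) (cb e a) = 0
  rw [polar_cb]
  have : cx Q e (e i) = 0 := by
    funext j
    exact h.ee j i
  rw [this, dotProduct_zero]

theorem cx_fe (a : Fin n → F) : cx Q f (cb e a) = a := by
  funext i
  show polar Q (f i) (cb e a) = a i
  rw [polar_cb]
  have : cx Q e (f i) = Pi.single i 1 := by
    funext j
    show polar Q (e j) (f i) = _
    rw [h.ef, Pi.single_apply]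
  rw [this, dotProduct_single, mul_one]

theorem Q_cb (a : Fin n → F) : Q (cb e a) = 0 := by
  have key : ∀ s : Finset (Fin n), Q (∑ i ∈ s, a i • e i) = 0 := by
    intro s
    induction s using Finset.induction_on with
    | empty => simp
    | insert i s hi ih =>
      rw [Finset.sum_insert hi, Q_add, ih, QuadraticMap.map_smul, h.qe, smul_zero, polar_smul_left, polar_sum]
      simp only [polar_smul_right, h.ee, smul_zero, Finset.sum_const_zero, add_zero]
  exact key _

theorem cxf_L (M N : Matrix (Fin n) (Fin n) F) (v : V) : cx Q f (L Q e f M N v) = M *ᵥ cx Q f v := by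
  rw [L_apply, cx_add, cx_add, h.cx_fe, h.symm.cx_ee]
  abel

theorem cxe_L (M N : Matrix (Fin n) (Fin n) F) (v : V) : cx Q e (L Q e f M N v) = N *ᵥ cx Q e v := by
  rw [L_apply, cx_add, cx_add, h.symm.cx_fe, h.cx_ee]
  abel

theorem L_mul (M N M' N' : Matrix (Fin n) (Fin n) F) (v : V) :
    L Q e f M N (L Q e f M' N' v) = L Q e f (M * M') (N * N') v := by
  rw [L_apply e f M N, h.cxf_L, h.cxe_L, L_apply, L_apply, ← mulVec_mulVec, ← mulVec_mulVec]
  simp only [cb_sub]
  abel

theorem Q_L {M N : Matrix (Fin n) (Fin n) F} (hMN : Mᵀ * N = 1) (v : V) : Q (L Q e f M N v) = Q v := by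
  rw [L_apply, add_assoc, Q_add, Q_add (cb e _) (cb f _), h.Q_cb, h.symm.Q_cb, polar_add_right, polar_cb, polar_cb, polar_cb,
    h.cx_fe]
  have h1 : (M *ᵥ cx Q f v) ⬝ᵥ (N *ᵥ cx Q e v) = cx Q f v ⬝ᵥ cx Q e v := by
    rw [← vecMul_transpose, ← dotProduct_mulVec, mulVec_mulVec, hMN, one_mulVec]
  simp only [sub_dotProduct, dotProduct_sub, dotProduct_comm (N *ᵥ cx Q e v) (cx Q f v),
    dotProduct_comm (N *ᵥ cx Q e v) (M *ᵥ cx Q f v), dotProduct_comm (cx Q e v) (M *ᵥ cx Q f v),
    dotProduct_comm (cx Q e v) (cx Q f v), h1]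
  ring

/-- the linear equivalence -/
def Le (A : SpecialLinearGroup (Fin n) F) : V ≃ₗ[F] V :=
  LinearEquiv.ofLinearMap (L Q e f A.1 (A⁻¹).1ᵀ) (L Q e f (A⁻¹).1 A.1ᵀ)
    (by
      apply LinearMap.ext
      intro v
      show L Q e f A.1 (A⁻¹).1ᵀ (L Q e f (A⁻¹).1 A.1ᵀ v) = v
      rw [h.L_mul, ← transpose_mul]
      have h1 : A.1 * (A⁻¹).1 = 1 := congrArg Subtype.val (mul_inv_cancel A)
      rw [h1, transpose_one, L_one])
    (by
      apply LinearMap.ext
      intro v
      show L Q e f (A⁻¹).1 A.1ᵀ (L Q e f A.1 (A⁻¹).1ᵀ v) = v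
      rw [h.L_mul, ← transpose_mul]
      have h1 : (A⁻¹).1 * A.1 = 1 := congrArg Subtype.val (inv_mul_cancel A)
      rw [h1, transpose_one, L_one])

theorem Le_apply (A : SpecialLinearGroup (Fin n) F) (v : V) : h.Le A v = L Q e f A.1 (A⁻¹).1ᵀ v := rfl

theorem Le_mem (A : SpecialLinearGroup (Fin n) F) : h.Le A ∈ O Q := by
  intro v
  rw [Le_apply]
  apply h.Q_L
  rw [← transpose_mul]
  have h1 : (A⁻¹).1 * A.1 = 1 := congrArg Subtype.val (inv_mul_cancel A)
  rw [h1, transpose_one]

/-- as a homomorphism -/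
def phiO : SpecialLinearGroup (Fin n) F →* (V ≃ₗ[F] V) :=
  MonoidHom.mk' h.Le fun A B => by
    apply LinearEquiv.ext
    intro v
    show L Q e f (A * B).1 ((A * B)⁻¹).1ᵀ v = L Q e f A.1 (A⁻¹).1ᵀ (L Q e f B.1 (B⁻¹).1ᵀ v)
    rw [h.L_mul, ← transpose_mul]
    congr 3
    rw [_root_.mul_inv_rev]
    rfl

theorem phiO_apply (A : SpecialLinearGroup (Fin n) F) (v : V) : h.phiO A v = L Q e f A.1 (A⁻¹).1ᵀ v := rfl

theorem phiO_mem (hG : Good Q) (h3 : 3 ≤ n) (A : SpecialLinearGroup (Fin n) F) : h.phiO A ∈ E Q := by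
  have h1 : h.phiO.range ≤ E Q := by
    have h2 : h.phiO.range ≤ O Q := by
      rintro _ ⟨t, rfl⟩
      exact h.Le_mem t
    have h4 : ⁅h.phiO.range, h.phiO.range⁆ = h.phiO.range := by
      have h5 : commutator (SpecialLinearGroup (Fin n) F) = ⊤ :=
        LieClassical.SLGen.commutator_eq_top (by rw [Fintype.card_fin]; exact h3)
      rw [commutator_def] at h5
      rw [MonoidHom.range_eq_map h.phiO, ← Subgroup.map_commutator, h5]
    rw [← h4, Subgroup.commutator_le]
    intro a ha b hb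
    exact H749.comm_mem_E hG (h2 ha) (h2 hb)
  exact h1 ⟨A, rfl⟩

/-- `SL_n →* E Q` -/
def phi (hG : Good Q) (h3 : 3 ≤ n) : SpecialLinearGroup (Fin n) F →* ↥(E Q) :=
  h.phiO.codRestrict (E Q) (h.phiO_mem hG h3)

theorem phi_ap (hG : Good Q) (h3 : 3 ≤ n) (A : SpecialLinearGroup (Fin n) F) (v : V) :
    ap (h.phi hG h3 A) v = L Q e f A.1 (A⁻¹).1ᵀ v := rfl

/-- an isometry fixing the system commutes with `SL_n` -/
theorem phi_comm (hG : Good Q) (h3 : 3 ≤ n) (A : SpecialLinearGroup (Fin n) F) {g : ↥(E Q)} (he : ∀ i, ap g (e i) = e i)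
    (hf : ∀ i, ap g (f i) = f i) : h.phi hG h3 A * g = g * h.phi hG h3 A := by
  apply ext_ap
  intro v
  have h1 : cx Q e (ap g v) = cx Q e v := by
    funext i
    show polar Q (e i) (ap g v) = polar Q (e i) v
    have := polar_ap g (e i) v
    rwa [he i] at this
  have h2 : cx Q f (ap g v) = cx Q f v := by
    funext i
    show polar Q (f i) (ap g v) = polar Q (f i) v
    have := polar_ap g (f i) v
    rwa [hf i] at this
  have h3' : ∀ a : Fin n → F, ap g (cb e a) = cb e a := by
    intro a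
    show (g : V ≃ₗ[F] V) (cb e a) = cb e a
    rw [cb, map_sum]
    refine Finset.sum_congr rfl fun i _ => ?_
    rw [map_smul]
    exact congrArg _ (he i)
  have h4' : ∀ a : Fin n → F, ap g (cb f a) = cb f a := by
    intro a
    show (g : V ≃ₗ[F] V) (cb f a) = cb f a
    rw [cb, map_sum]
    refine Finset.sum_congr rfl fun i _ => ?_
    rw [map_smul]
    exact congrArg _ (hf i)
  rw [ap_mul, ap_mul, phi_ap, phi_ap, L_apply, L_apply, ap_add, ap_add, h1, h2, h3', h4']

/-- the root elements -/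
theorem root_mem (hG : Good Q) (h3 : 3 ≤ n) {i j : Fin n} (hij : i ≠ j) (t : F) :
    S Q (e i) (t • f j) ∈ (h.phi hG h3).range := by
  let A : SpecialLinearGroup (Fin n) F := ⟨Matrix.transvection i j (-t), Matrix.det_transvection_of_ne i j hij (-t)⟩
  let A' : SpecialLinearGroup (Fin n) F := ⟨Matrix.transvection i j t, Matrix.det_transvection_of_ne i j hij t⟩
  have hinv : A⁻¹ = A' := by
    rw [inv_eq_iff_mul_eq_one]
    apply Subtype.ext
    show Matrix.transvection i j (-t) * Matrix.transvection i j t = 1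
    rw [Matrix.transvection_mul_transvection_same _ _ hij, neg_add_cancel, Matrix.transvection_zero]
  refine ⟨A, ?_⟩
  apply ext_ap
  intro v
  have hw : polar Q (e i) (t • f j) = 0 := by rw [polar_smul_right, h.ef, if_neg hij, smul_zero]
  have hq : Q (t • f j) = 0 := by rw [QuadraticMap.map_smul, h.qf, smul_zero]
  rw [phi_ap, L_apply, hinv, S_ap' (h.qe i) hw hq]
  have h1 : Matrix.transvection i j (-t) *ᵥ cx Q f v - cx Q f v = Pi.single i (-t * polar Q (f j) v) := by
    rw [Matrix.transvection, add_mulVec, one_mulVec, add_sub_cancel_left]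
    funext k
    rw [Matrix.single_mulVec]
    rfl
  have h2 : (Matrix.transvection i j t)ᵀ *ᵥ cx Q e v - cx Q e v = Pi.single j (t * polar Q (e i) v) := by
    rw [Matrix.transvection, transpose_add, transpose_one, transpose_single, add_mulVec, one_mulVec, add_sub_cancel_left]
    funext k
    rw [Matrix.single_mulVec]
    rfl
  have h4 : ∀ (g : Fin n → V) (k : Fin n) (a : F), cb g (Pi.single k a) = a • g k := by
    intro g k a
    rw [cb, Finset.sum_eq_single k]
    · rw [Pi.single_eq_same]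
    · intro b _ hb
      rw [Pi.single_eq_of_ne hb, zero_smul]
    · intro hk
      exact absurd (Finset.mem_univ k) hk
  show v + cb e (Matrix.transvection i j (-t) *ᵥ cx Q f v - cx Q f v) +
    cb f ((Matrix.transvection i j t)ᵀ *ᵥ cx Q e v - cx Q e v) = _
  rw [h1, h2, h4, h4, polar_smul_left]
  simp only [smul_eq_mul]
  module

end HS

end Cfsg.Agent.H198.IF
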