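import Cfsg.Agent.H198.IF.End
import Cfsg.Agent.H112.Row2.OrthExt
import Cfsg.Agent.H847.IF.Lift

/-!
# S5719, orthogonal groups, `q` odd: the step of the end game (helper198)

For a fundamental involution `z` with fixed space `U`: `extE : E (Q|U) →* E Q`; with the minimal index of `E (Q|U)` and
the class bound, `π z ∈ A` forces `E (Q|U) ≤ X = π⁻¹ A` (dimension at least 15).
-/

set_option autoImplicit false
set_option linter.unusedSectionVars false

namespace Cfsg.Agent.H198.IF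

open QuadraticMap Matrix Module
open Cfsg.Agent.LieClassical.OrthCore Cfsg.Agent.LieClassical.OrthTrans Cfsg.Agent.LieClassical.OrthSimple
open Cfsg.Agent.H989.Gs.Gen
open Cfsg.Agent.H989.Fx (Fund fund_ap fund_of_four)
open Cfsg.Agent.UGT.U2.FOne.Orth (Four tl)
open Cfsg.Agent.H112.Row2.OrthExt (QU QU_apply polar_QU ext ext_left ext_right ext_siegel extE coe_extE)
open Cfsg.Agent.H209.Fxy (IF)

variable {F V : Type*} [Field F] [AddCommGroup V] [Module F V] {Q : QuadraticForm F V}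

/-- the fixed space -/
def Fix (z : ↥(E Q)) : Submodule F V where
  carrier := {v | ap z v = v}
  add_mem' {a b} ha hb := by
    change ap z (a + b) = a + b
    rw [ap_add]
    exact congrArg₂ _ ha hb
  zero_mem' := map_zero _
  smul_mem' c a ha := by
    change ap z (c • a) = c • a
    rw [ap_smul]
    exact congrArg _ ha

theorem mem_Fix {z : ↥(E Q)} {v : V} : v ∈ Fix z ↔ ap z v = v := Iff.rfl

/-- the `-1` space -/
def Neg (z : ↥(E Q)) : Submodule F V where
  carrier := {v | ap z v = -v}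
  add_mem' {a b} ha hb := by
    change ap z (a + b) = -(a + b)
    rw [ap_add, neg_add]
    exact congrArg₂ _ ha hb
  zero_mem' := (map_zero _).trans neg_zero.symm
  smul_mem' c a ha := by
    change ap z (c • a) = -(c • a)
    rw [ap_smul, ← smul_neg]
    exact congrArg _ ha

theorem mem_Neg {z : ↥(E Q)} {v : V} : v ∈ Neg z ↔ ap z v = -v := Iff.rfl

theorem Neg_spec {z : ↥(E Q)} (v : V) : v ∈ Neg z ↔ ap z v = -v := Iff.rfl

section

variable (h2 : (2 : F) ≠ 0) {z : ↥(E Q)} (hz : z * z = 1)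

include h2 in
theorem isCompl (hz : z * z = 1) : IsCompl (Fix z) (Neg z) := by
  have hzz : ∀ v, ap z (ap z v) = v := fun v => by rw [← ap_mul, hz, ap_one]
  constructor
  · rw [Submodule.disjoint_def]
    intro v h1 h3
    rw [mem_Fix] at h1
    rw [mem_Neg, h1] at h3
    have h4 : (2 : F) • v = 0 := by rw [two_smul]; nth_rewrite 2 [h3]; exact add_neg_cancel v
    exact (smul_eq_zero.1 h4).resolve_left h2
  · rw [codisjoint_iff, eq_top_iff]
    intro v _
    have h1 : v = (2 : F)⁻¹ • (v + ap z v) + (2 : F)⁻¹ • (v - ap z v) := by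
      rw [← smul_add]
      have : v + ap z v + (v - ap z v) = (2 : F) • v := by rw [two_smul]; abel
      rw [this, smul_smul, inv_mul_cancel₀ h2, one_smul]
    rw [h1]
    refine Submodule.add_mem_sup (Submodule.smul_mem _ _ ?_) (Submodule.smul_mem _ _ ?_)
    · rw [mem_Fix, ap_add, hzz, add_comm]
    · rw [mem_Neg, ap_sub, hzz, neg_sub]

include h2 in
theorem orth : ∀ u ∈ Fix z, ∀ w ∈ Neg z, polar Q u w = 0 := by
  intro u hu w hw
  have h1 := polar_ap z u w
  rw [mem_Fix] at hu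
  rw [mem_Neg] at hw
  rw [hu, hw, polar_neg_right] at h1
  have h3 : (2 : F) * polar Q u w = 0 := by linear_combination -h1
  exact (mul_eq_zero.1 h3).resolve_left h2

end

theorem nondeg_QU (hQ : Nondeg Q) {U W : Submodule F V} (h : IsCompl U W) (ho : ∀ u ∈ U, ∀ w ∈ W, polar Q u w = 0) :
    Nondeg (QU Q U) := by
  intro x hx
  apply Subtype.ext
  apply hQ
  intro y
  obtain ⟨u, w, rfl⟩ := H112.Row2.OrthExt.exists_dec h y
  rw [polar_add_right, ho _ x.2 _ w.2, add_zero, ← polar_QU]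
  exact hx u

theorem fund_basis {z : ↥(E Q)} {e₁ f₁ e₂ f₂ : V} (h : Four Q e₁ f₁ e₂ f₂) (h1 : ap z e₁ = -e₁)
    (h2 : ap z f₁ = -f₁) (h3 : ap z e₂ = -e₂) (h4 : ap z f₂ = -f₂)
    (h5 : ∀ v, polar Q e₁ v = 0 → polar Q f₁ v = 0 → polar Q e₂ v = 0 → polar Q f₂ v = 0 → ap z v = v)
    (h2' : (2 : F) ≠ 0) {v : V} (hv : v ∈ Fix z) :
    polar Q e₁ v = 0 ∧ polar Q f₁ v = 0 ∧ polar Q e₂ v = 0 ∧ polar Q f₂ v = 0 := by
  have key : ∀ e, ap z e = -e → polar Q e v = 0 := by
    intro e he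
    rw [polar_comm]
    exact orth h2' v hv e he
  exact ⟨key _ h1, key _ h2, key _ h3, key _ h4⟩

/-- the fixed space of a fundamental involution has codimension 4 -/
theorem finrank_Fix [FiniteDimensional F V] (h2' : (2 : F) ≠ 0) {z : ↥(E Q)} (hz : Fund Q z) :
    finrank F (Fix z) + 4 = finrank F V := by
  obtain ⟨e₁, f₁, e₂, f₂, h, h1, h2, h3, h4, h5⟩ := hz
  let L : V →ₗ[F] (F × F) × (F × F) :=
    ((polarBilin Q f₁).prod (polarBilin Q e₁)).prod ((polarBilin Q f₂).prod (polarBilin Q e₂))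
  have hL : ∀ v, L v = ((polar Q f₁ v, polar Q e₁ v), (polar Q f₂ v, polar Q e₂ v)) := fun v => rfl
  have hker : LinearMap.ker L = Fix z := by
    ext v
    rw [LinearMap.mem_ker, hL]
    constructor
    · intro hv
      simp only [Prod.mk_eq_zero] at hv
      exact h5 v hv.1.2 hv.1.1 hv.2.2 hv.2.1
    · intro hv
      obtain ⟨k1, k2, k3, k4⟩ := fund_basis h h1 h2 h3 h4 h5 h2' hv
      rw [k1, k2, k3, k4]
      rfl
  have hrange : LinearMap.range L = ⊤ := by
    rw [eq_top_iff]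
    rintro ⟨⟨a, b⟩, ⟨c, d⟩⟩ _
    obtain ⟨p1, p2, p3, p4, p5, p6, p7, p8, p9, p10, p11, p12, p13, p14, p15, p16⟩ := h.pols
    refine ⟨a • e₁ + b • f₁ + (c • e₂ + d • f₂), ?_⟩
    rw [hL]
    simp only [polar_add_right, polar_smul_right, p1, p2, p3, p4, p5, p6, p7, p8, p9, p10, p11, p12, p13, p14, p15, p16,
      smul_eq_mul, mul_one, mul_zero, add_zero, zero_add]
  have h6 := LinearMap.finrank_range_add_finrank_ker L
  rw [hker, hrange, finrank_top, Module.finrank_prod, Module.finrank_prod, Module.finrank_self] at h6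
  omega

theorem finrank_Neg [FiniteDimensional F V] (h2' : (2 : F) ≠ 0) {z : ↥(E Q)} (hz : Fund Q z) :
    finrank F (Neg z) = 4 := by
  have h1 := finrank_Fix h2' hz
  have h3 := Submodule.finrank_add_eq_of_isCompl (isCompl h2' hz.sq)
  omega

/-- the extension of `E (Q|U)` for the fixed space `U` of an involution -/
noncomputable def xt (h2 : (2 : F) ≠ 0) {z : ↥(E Q)} (hz : z * z = 1) : ↥(E (QU Q (Fix z))) →* ↥(E Q) :=
  extE (isCompl h2 hz) (orth h2)

theorem xt_left (h2 : (2 : F) ≠ 0) {z : ↥(E Q)} (hz : z * z = 1) (A : ↥(E (QU Q (Fix z)))) (u : Fix z) :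
    ap (xt h2 hz A) (u : V) = (ap A u : Fix z) := ext_left (isCompl h2 hz) A.1 u

theorem xt_right (h2 : (2 : F) ≠ 0) {z : ↥(E Q)} (hz : z * z = 1) (A : ↥(E (QU Q (Fix z)))) {w : V}
    (hw : w ∈ Neg z) : ap (xt h2 hz A) w = w := ext_right (isCompl h2 hz) A.1 hw

theorem xt_comm (h2 : (2 : F) ≠ 0) {z : ↥(E Q)} (hz : z * z = 1) (A : ↥(E (QU Q (Fix z)))) :
    xt h2 hz A * z = z * xt h2 hz A := by
  apply ext_ap
  intro v
  obtain ⟨u, w, rfl⟩ := H112.Row2.OrthExt.exists_dec (isCompl h2 hz) v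
  have hu : ap z (u : V) = u := u.2
  have hw : ap z (w : V) = -w := w.2
  have hA : ap z ((ap A u : Fix z) : V) = (ap A u : Fix z) := (ap A u : Fix z).2
  rw [ap_mul, ap_mul, ap_add, hu, hw, ap_add, ap_add, ap_neg, xt_left, xt_right h2 hz A w.2, ap_add, hA, hw]

theorem xt_S (h2 : (2 : F) ≠ 0) {z : ↥(E Q)} (hz : z * z = 1) (u w : Fix z) (hu : Q (u : V) = 0)
    (hw : polar Q (u : V) w = 0) : xt h2 hz (S (QU Q (Fix z)) u w) = S Q (u : V) w := by
  have hu' : QU Q (Fix z) u = 0 := hu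
  have hw' : polar (QU Q (Fix z)) u w = 0 := by rw [polar_QU]; exact hw
  rw [S_eq hu' hw', S_eq hu hw]
  apply Subtype.ext
  exact ext_siegel (isCompl h2 hz) (orth h2) hu' hw' hu hw

/-- elements of the kernel are scalars; then `π z ≠ 1` -/
theorem pi_ne_one {T : Type*} [Group T] {π : ↥(E Q) →* T} (hk : ∀ g : ↥(E Q), π g = 1 → ∃ c : F, ∀ v, ap g v = c • v)
    (h2 : (2 : F) ≠ 0) [FiniteDimensional F V] (hN : 5 ≤ finrank F V) {z : ↥(E Q)} (hz : Fund Q z) : π z ≠ 1 := by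
  intro h1
  obtain ⟨c, hc⟩ := hk z h1
  have h3 := finrank_Fix h2 hz
  have h4 : Fix z ≠ ⊥ := by
    intro h5
    rw [h5, finrank_bot] at h3
    omega
  obtain ⟨v, hv, hv0⟩ := (Submodule.ne_bot_iff _).1 h4
  have h5 : c = 1 := by
    have h6 := hc v
    rw [mem_Fix.1 hv] at h6
    have h7 : (1 - c) • v = 0 := by rw [sub_smul, one_smul, ← h6, sub_self]
    exact (sub_eq_zero.1 ((smul_eq_zero.1 h7).resolve_right hv0)).symm
  apply hz.ne_one h2
  apply ext_ap
  intro v
  rw [hc, h5, one_smul, ap_one]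

/-- **the step of the end game, dimension at least 15** -/
theorem step_of_min [Finite F] [FiniteDimensional F V] (h2 : (2 : F) ≠ 0) (hN : 15 ≤ finrank F V)
    {T : Type*} [Group T] [Finite T] [IsSimpleGroup T] {A : Subgroup T} {Γ : Subgroup (MulAut T)} (h : IF A Γ)
    (hna : ∃ a b : T, a * b ≠ b * a) (π : ↥(E Q) →* T) (hπ : Function.Surjective π)
    (hk : ∀ g : ↥(E Q), π g = 1 → ∃ c : F, ∀ v, ap g v = c • v)
    (z : ↥(E Q)) (hz : Fund Q z) (hzA : π z ∈ A)
    (hcl : (Subgroup.centralizer ({z} : Set ↥(E Q))).index ≤ Nat.card F ^ (4 * (finrank F V - 4) + 1))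
    (hmin : ∀ K : Subgroup ↥(E (QU Q (Fix z))), K ≠ ⊤ → Nat.card F ^ (finrank F (Fix z) - 2) ≤ K.index) :
    ∀ u w : V, Q u = 0 → polar Q u w = 0 → ap z u = u → ap z w = w → S Q u w ∈ A.comap π := by
  have hfin : Finite V := Module.finite_of_finite F
  have hfE : Finite ↥(E Q) := Finite.of_injective (fun g : ↥(E Q) => fun v => ap g v) fun a b hab =>
    ext_ap fun v => congrFun hab v
  have hsq := hz.sq
  have key : (A.comap π).comap (xt h2 hsq) = ⊤ := by
    by_contra hne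
    have h1 := hmin _ hne
    rw [Subgroup.index_comap] at h1
    have h3 := H847.IF.lift_E2 h hna π hπ (t := z) hzA (pi_ne_one hk h2 (by omega) hz) (by rw [hsq, map_one])
      (B := (xt h2 hsq).range) (by
        rintro _ ⟨a, rfl⟩
        rw [xt_comm])
    have h4 := finrank_Fix h2 hz
    have h5 : (Nat.card F ^ (finrank F (Fix z) - 2)) ^ 5 ≤ ((A.comap π).relIndex (xt h2 hsq).range) ^ 5 :=
      Nat.pow_le_pow_left h1 5
    have h6 := lt_of_le_of_lt h5 (lt_of_lt_of_le h3 hcl)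
    rw [← pow_mul] at h6
    have h7 : 1 < Nat.card F := Finite.one_lt_card
    have h8 := (Nat.pow_lt_pow_iff_right h7).1 h6
    omega
  intro u w hu hw hzu hzw
  have h1 : S (QU Q (Fix z)) ⟨u, hzu⟩ ⟨w, hzw⟩ ∈ (A.comap π).comap (xt h2 hsq) := by
    rw [key]
    exact Subgroup.mem_top _
  rw [Subgroup.mem_comap, xt_S h2 hsq ⟨u, hzu⟩ ⟨w, hzw⟩ hu hw] at h1
  exact h1

end Cfsg.Agent.H198.IF
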